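import Groth.Agent.Lefpen.H61.T4Phi

/-!
# The point of `Y` below a prime of the cone ring

`exists_point`: `q` a prime of the cone ring `A` not containing `T_α`: there is a point `x` of the chart `α` of `Y` such
that rational functions which are units at `x` are quotients of elements of `A ∖ q`.
-/

set_option autoImplicit false
universe u
open CategoryTheory CategoryTheory.Limits AlgebraicGeometry TopologicalSpace Opposite MvPolynomial
open LefPen

namespace Groth.Agent.Lefpen.H718.ConePoint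

open Groth.Agent.Lefpen.H718.Reg Groth.Agent.Lefpen.H718.ConeCM Groth.Agent.Lefpen.H718.Grade
open Groth.Agent.Lefpen.H718.Chart Groth.Agent.Lefpen.H725.CocDef Groth.Agent.Lefpen.H61.T4Phi
open Groth.Agent.Lefpen.H121.ChartLift Groth.Agent.Fdesc.LocGen Groth.Agent.Sga5

variable {K : Type u} [Field K] {N d : ℕ} {a : Fin d → ℕ} (G : ∀ j : Fin d, Form N K (a j))

/-- Functions on the chart with values in the residue field of a prime of the cone ring. -/
theorem exists_eval (q : Ideal (A (eqn G))) [q.IsPrime] (α : Fin (N + 1)) (hα : mk (eqn G) (X α) ∉ q) :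
    ∃ ψ : Γ(Y G, ychart G α) →+* q.ResidueField, ∀ (D : ℕ) (F : MvPolynomial (Fin (N + 1)) K), F.IsHomogeneous D →
      ψ (toY G α (ProjChart.dehom N K α F)) ≠ 0 → mk (eqn G) F ∉ q := by
  let v : MvPolynomial (Fin (N + 1)) K →+* q.ResidueField := (algebraMap (A (eqn G)) q.ResidueField).comp (mk (eqn G))
  have hv : ∀ p, v p = 0 ↔ mk (eqn G) p ∈ q := fun p => by
    change algebraMap (A (eqn G)) q.ResidueField (mk (eqn G) p) = 0 ↔ _
    rw [Ideal.algebraMap_residueField_eq_zero]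
  have hvα : v (X α) ≠ 0 := fun h => hα ((hv _).1 h)
  have hG : ∀ i, v (G i).1 = 0 := fun i => by
    rw [hv]
    have h0 : mk (eqn G) (G i).1 = 0 := Ideal.Quotient.eq_zero_iff_mem.2 (Ideal.subset_span ⟨i, rfl⟩)
    rw [h0]
    exact zero_mem _
  have hG' : ∀ i, Jac.aff v α (ProjChart.dehom N K α (G i).1) = 0 := by
    intro i
    have h := Jac.eval_eq v α hvα (a i) (G i).1 (G i).2
    rw [hG] at h
    exact (mul_eq_zero.1 h.symm).resolve_left (pow_ne_zero _ hvα)
  have hker : RingHom.ker (toY G α) ≤ RingHom.ker (Jac.aff v α) := by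
    rw [ker_toY, Ideal.span_le]
    rintro _ ⟨i, rfl⟩
    exact hG' i
  refine ⟨RingHom.liftOfSurjective (toY G α) (toY_surjective G α) ⟨Jac.aff v α, hker⟩, fun D F hF hne => ?_⟩
  have h1 : RingHom.liftOfSurjective (toY G α) (toY_surjective G α) ⟨Jac.aff v α, hker⟩
      (toY G α (ProjChart.dehom N K α F)) = Jac.aff v α (ProjChart.dehom N K α F) :=
    RingHom.liftOfRightInverse_comp_apply (toY G α) _ _ ⟨Jac.aff v α, hker⟩ _
  rw [h1] at hne
  intro hm
  rw [← hv, Jac.eval_eq v α hvα D F hF] at hm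
  exact (mul_ne_zero (pow_ne_zero _ hvα) hne) hm

/-- A point of an affine open from a homomorphism to a field. -/
theorem exists_mem_of_hom {X : Scheme.{u}} {U : X.Opens} (hU : IsAffineOpen U) {κ : Type u} [Field κ]
    (ψ : Γ(X, U) →+* κ) : ∃ x ∈ U, ∀ s : Γ(X, U), x ∈ X.basicOpen s ↔ ψ s ≠ 0 := by
  let P : PrimeSpectrum Γ(X, U) := ⟨RingHom.ker ψ, RingHom.ker_isPrime ψ⟩
  refine ⟨hU.fromSpec P, ?_, fun s => ?_⟩
  · have h := Set.mem_range_self (f := hU.fromSpec) P
    rw [hU.range_fromSpec] at h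
    exact h
  · have h := hU.fromSpec_preimage_basicOpen s
    have h1 : hU.fromSpec P ∈ X.basicOpen s ↔ P ∈ PrimeSpectrum.basicOpen s := by
      rw [← h]
      rfl
    rw [h1]
    rfl

variable [IsIntegral (Y G)] (hdom : IsDomain (A (eqn G))) (hx : ∀ i, mk (eqn G) (X i) ≠ 0)
  (Q : Type u) [Field Q] [Algebra (A (eqn G)) Q] [IsFractionRing (A (eqn G)) Q]

/-- Units at a point are quotients of functions not vanishing at it. -/
theorem exists_frac_of_unitAt {X : Scheme.{u}} [IsIntegral X] {U : X.Opens} (hU : IsAffineOpen U) {x : X}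
    (hx : x ∈ U) (hη : genericPoint X ∈ U) {v : X.functionField} (hv : UnitAt x v) :
    ∃ (s t : Γ(X, U)) (n : ℕ), x ∈ X.basicOpen s ∧ x ∈ X.basicOpen t ∧ v * ff U hη t ^ n = ff U hη s := by
  obtain ⟨W, hxW, hWη, g, hg, rfl⟩ := hv
  obtain ⟨t, ht1, ht2⟩ := hU.exists_basicOpen_le ⟨x, hxW⟩ hx
  have hloc := hU.isLocalization_basicOpen t
  obtain ⟨n, s, hs⟩ := IsLocalization.Away.surj t (ores ht1 g)
  have hs' : ores ht1 g * ores (X.basicOpen_le t) t ^ n = ores (X.basicOpen_le t) s := hs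
  have htη : genericPoint X ∈ X.basicOpen t := generic_mem_of ht2
  refine ⟨s, t, n, ?_, ht2, ?_⟩
  · refine mem_basicOpen_of_isUnit (X.basicOpen_le t) ?_ ht2
    rw [← hs']
    exact (hg.map _).mul ((RingedSpace.isUnit_res_basicOpen X.toRingedSpace t).pow n)
  · have h := congrArg (ff _ htη) hs'
    rw [map_mul, map_pow, ff_ores, ff_ores, ff_ores] at h
    exact h

variable (Φ : (Y G).functionField →+* Q)
    (hΦ : ∀ α (P : MvPolynomial (Fin N) K), Φ (ff (ychart G α) (generic_mem G hdom hx α) (toY G α P)) = evx G Q α P)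

include hΦ in
theorem exists_point (q : Ideal (A (eqn G))) [hq : q.IsPrime] (α : Fin (N + 1)) (hα : mk (eqn G) (X α) ∉ q) :
    ∃ x ∈ ychart G α, ∀ v : (Y G).functionField, UnitAt x v →
      ∃ s t : A (eqn G), s ∉ q ∧ t ∉ q ∧ Φ v * algebraMap (A (eqn G)) Q t = algebraMap (A (eqn G)) Q s := by
  obtain ⟨ψ, hψ⟩ := exists_eval G q α hα
  obtain ⟨x, hxU, hxs⟩ := exists_mem_of_hom (isAffineOpen_ychart G α) ψ
  refine ⟨x, hxU, fun v hv => ?_⟩
  have hη := generic_mem G hdom hx α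
  obtain ⟨s, t, n, hs, ht, hst⟩ := exists_frac_of_unitAt (isAffineOpen_ychart G α) hxU hη hv
  obtain ⟨p, rfl⟩ := toY_surjective G α s
  obtain ⟨r, rfl⟩ := toY_surjective G α t
  obtain ⟨M₁, h1⟩ := exists_homogenization α p
  obtain ⟨M₂, h2⟩ := exists_homogenization α r
  obtain ⟨F, hF, rfl⟩ := h1 M₁ le_rfl
  obtain ⟨H, hH, rfl⟩ := h2 M₂ le_rfl
  have hFq : mk (eqn G) F ∉ q := hψ _ F hF ((hxs _).1 hs)
  have hHq : mk (eqn G) H ∉ q := hψ _ H hH ((hxs _).1 ht)
  have h3 := congrArg Φ hst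
  rw [map_mul, map_pow, hΦ, hΦ, evx_dehom G hx Q α hF, evx_dehom G hx Q α hH] at h3
  refine ⟨mk (eqn G) (F * X α ^ (n * M₂)), mk (eqn G) (X α ^ M₁ * H ^ n), ?_, ?_, ?_⟩
  · rw [map_mul, map_pow]
    exact fun h => (hq.mem_or_mem h).elim hFq (fun h => hα (hq.mem_of_pow_mem _ h))
  · rw [map_mul, map_pow, map_pow]
    exact fun h => (hq.mem_or_mem h).elim (fun h => hα (hq.mem_of_pow_mem _ h)) (fun h => hHq (hq.mem_of_pow_mem _ h))
  · change Φ v * vv G Q (X α ^ M₁ * H ^ n) = vv G Q (F * X α ^ (n * M₂))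
    have hxα := xx_ne_zero G hx Q α
    rw [map_mul, map_mul, map_pow, map_pow, map_pow, vv_X]
    rw [div_pow, mul_div_assoc', div_eq_div_iff (pow_ne_zero _ (pow_ne_zero _ hxα)) (pow_ne_zero _ hxα), ← pow_mul] at h3
    rw [mul_comm n M₂]
    linear_combination h3

end Groth.Agent.Lefpen.H718.ConePoint
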